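import Mathlib
import Cfsg.Agent.Lib.ClMax.SpTv

/-!
Subgroups `M` of a symplectic group in characteristic two containing, for some vector `a`, a
complement to the transvection group of `a` in the unipotent radical of the stabilizer of `a`.
-/

set_option autoImplicit false

namespace CfsgLib.Sp2Root

open CfsgLib.ClMax Module

universe u v

variable {F : Type u} [Field F] {V : Type v} [AddCommGroup V] [Module F V]
variable {B : LinearMap.BilinForm F V} {M : Subgroup (V ≃ₗ[F] V)}

/-- `M` contains the elements `r(a; w, φ w)` for all `w ⊥ a`, and they form a group. -/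
structure IsX (B : LinearMap.BilinForm F V) (M : Subgroup (V ≃ₗ[F] V)) (a : V) (φ : V → F) :
    Prop where
  ne : a ≠ 0
  add : ∀ w w', B a w = 0 → B a w' = 0 → φ (w + w') = φ w + φ w' + B w w'
  self : ∀ c : F, φ (c • a) = 0
  mem : ∀ w, B a w = 0 → HIn B M a w (φ w)

/-- The vectors `a` for which `M` contains such a group. -/
def Pt (B : LinearMap.BilinForm F V) (M : Subgroup (V ≃ₗ[F] V)) (a : V) : Prop :=
  ∃ φ, IsX B M a φ

theorem Pt.ne {a : V} (h : Pt B M a) : a ≠ 0 := h.choose_spec.ne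

theorem HIn.mono {M' : Subgroup (V ≃ₗ[F] V)} (hle : M ≤ M') {a w : V} {d : F}
    (h : HIn B M a w d) : HIn B M' a w d := by
  obtain ⟨g, hg, h⟩ := h
  exact ⟨g, hle hg, h⟩

theorem IsX.mono {M' : Subgroup (V ≃ₗ[F] V)} (hle : M ≤ M') {a : V} {φ : V → F}
    (h : IsX B M a φ) : IsX B M' a φ :=
  ⟨h.ne, h.add, h.self, fun w hw => HIn.mono hle (h.mem w hw)⟩

theorem IsX.zero {a : V} {φ : V → F} (h : IsX B M a φ) : φ 0 = 0 := by
  simpa using h.self 0

theorem IsX.conj (hM : M ≤ spIso B) {a : V} {φ : V → F} (h : IsX B M a φ) {k : V ≃ₗ[F] V}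
    (hk : k ∈ M) : IsX B M (k a) (fun w => φ (k.symm w)) := by
  have hB : ∀ u v, B (k.symm u) (k.symm v) = B u v := fun u v => by
    rw [← hM hk]; simp
  have ha : ∀ w, B (k a) w = 0 → B a (k.symm w) = 0 := fun w hw => by
    rw [spIso_symm_left (hM hk), hw]
  refine ⟨by simpa using h.ne, fun w w' hw hw' => ?_, fun c => ?_, fun w hw => ?_⟩
  · simp only [map_add]
    rw [h.add _ _ (ha w hw) (ha w' hw'), hB]
  · simp only [map_smul, LinearEquiv.symm_apply_apply]
    exact h.self c
  · exact ((h.mem _ (ha w hw)).conj hM hk).congr rfl (by simp) rfl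

theorem IsX.smul {a : V} {φ : V → F} (h : IsX B M a φ) {c : F} (hc : c ≠ 0) :
    IsX B M (c • a) (fun w => (c ^ 2)⁻¹ * φ (c • w)) := by
  have ha : ∀ w, B (c • a) w = 0 → B a (c • w) = 0 := fun w hw => by
    simpa using hw
  refine ⟨smul_ne_zero hc h.ne, fun w w' hw hw' => ?_, fun d => ?_, fun w hw => ?_⟩
  · simp only [smul_add]
    rw [h.add _ _ (ha w hw) (ha w' hw')]
    simp only [map_smul, LinearMap.smul_apply, smul_eq_mul]
    field_simp
  · simp only [smul_smul, h.self, mul_zero]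
  · rw [hIn_smul_left]
    exact (h.mem _ (ha w hw)).congr rfl rfl (by field_simp)

theorem Pt.conj (hM : M ≤ spIso B) {a : V} (h : Pt B M a) {k : V ≃ₗ[F] V} (hk : k ∈ M) :
    Pt B M (k a) := ⟨_, h.choose_spec.conj hM hk⟩

theorem Pt.smul {a : V} (h : Pt B M a) {c : F} (hc : c ≠ 0) : Pt B M (c • a) :=
  ⟨_, h.choose_spec.smul hc⟩

theorem Pt.of_smul {a : V} {c : F} (h : Pt B M (c • a)) : Pt B M a := by
  have hc : c ≠ 0 := by
    rintro rfl
    exact h.ne (zero_smul _ _)
  simpa [smul_smul, hc] using h.smul (inv_ne_zero hc)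

theorem Pt.congr {a b : V} (h : Pt B M a) (e : a = b) : Pt B M b := e ▸ h

theorem B_comm [CharP F 2] (hA : B.IsAlt) (u v : V) : B u v = B v u := by
  rw [← hA.neg_eq, CharTwo.neg_eq]

theorem add_self [CharP F 2] (v : V) : v + v = 0 := by
  rw [← two_smul F, CharTwo.two_eq_zero, zero_smul]

theorem notMem_span_of_B {x y z : V} (h1 : B z x = 0) (h2 : B z y ≠ 0) :
    y ∉ Submodule.span F {x} := by
  intro h
  obtain ⟨c, rfl⟩ := Submodule.mem_span_singleton.1 h
  simp [h1] at h2

theorem notMem_span_symm {x y : V} (hy : y ≠ 0) (h : x ∉ Submodule.span F {y}) :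
    y ∉ Submodule.span F {x} := by
  intro h'
  obtain ⟨c, rfl⟩ := Submodule.mem_span_singleton.1 h'
  have hc : c ≠ 0 := by
    rintro rfl
    exact hy (zero_smul _ _)
  exact h (Submodule.mem_span_singleton.2 ⟨c⁻¹, by simp [smul_smul, hc]⟩)

variable [FiniteDimensional F V] (hA : B.IsAlt) (hB : B.Nondegenerate)
include hA hB

/-- The group attached to `a` is transitive on the vectors `x + s a` for `x ⊥ a`. -/
theorem Pt.exists_move {a x : V} (ha : Pt B M a) (hax : B a x = 0)
    (hx : x ∉ Submodule.span F {a}) (s : F) : ∃ k ∈ M, k a = a ∧ k x = x + s • a := by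
  obtain ⟨φ, hφ⟩ := ha
  obtain ⟨u, hu1, hu2⟩ := exists_dual hA hB _ hx
  have hua : B u a = 0 := hu2 a (Submodule.mem_span_singleton_self a)
  have hau : B a (s • u) = 0 := by rw [map_smul, ← hA.neg_eq, hua]; simp
  obtain ⟨k, hk, hkv⟩ := hφ.mem _ hau
  refine ⟨k, hk, ?_, ?_⟩
  · rw [hkv]; simp [hA.self_eq_zero, hua]
  · rw [hkv]; simp [hax, hu1]

theorem Pt.add_smul (hM : M ≤ spIso B) {a x : V} (ha : Pt B M a) (hx : Pt B M x)
    (hax : B a x = 0) (hn : x ∉ Submodule.span F {a}) (s : F) : Pt B M (x + s • a) := by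
  obtain ⟨k, hk, -, hkx⟩ := ha.exists_move hA hB hax hn s
  exact (hx.conj hM hk).congr hkx

/-- A totally isotropic line with two points in `Pt` lies in `Pt`. -/
theorem Pt.line (hM : M ≤ spIso B) {a x : V} (ha : Pt B M a) (hx : Pt B M x)
    (hax : B a x = 0) (hn : x ∉ Submodule.span F {a}) (s t : F) (h0 : s • a + t • x ≠ 0) :
    Pt B M (s • a + t • x) := by
  by_cases ht : t = 0
  · subst ht
    have hs : s ≠ 0 := by
      rintro rfl
      simp at h0
    simpa using ha.smul hs
  · refine ((ha.add_smul hA hB hM hx hax hn (t⁻¹ * s)).smul ht).congr ?_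
    rw [smul_add, smul_smul, mul_inv_cancel_left₀ ht, add_comm]

omit hA hB in
theorem exists_orth_two (hdim : 3 ≤ finrank F V) (x y : V) :
    ∃ z, z ≠ 0 ∧ B x z = 0 ∧ B y z = 0 := by
  obtain ⟨u, -, hu, hu0⟩ := exists_orth_not_mem B ⊤ ⊥ ![x, y] (by simp; omega)
  exact ⟨u, by simpa using hu0, hu 0, hu 1⟩

/-- A hyperbolic pair orthogonal to a given hyperbolic pair. -/
theorem exists_hyp_orth (hdim : 3 ≤ finrank F V) {a b : V} (hab : B a b = 1) :
    ∃ e f, B a e = 0 ∧ B b e = 0 ∧ B a f = 0 ∧ B b f = 0 ∧ B f e = 1 := by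
  obtain ⟨e, he0, hae, hbe⟩ := exists_orth_two (B := B) hdim a b
  have hba : B b a = -1 := by rw [← hA.neg_eq, hab]
  have hn : e ∉ Submodule.span F {a, b} := by
    intro h
    obtain ⟨s, t, rfl⟩ := Submodule.mem_span_pair.1 h
    simp only [map_add, map_smul, hA.self_eq_zero, hab, hba, smul_eq_mul] at hae hbe
    have ht : t = 0 := by simpa using hae
    have hs : s = 0 := by simpa using hbe
    simp [hs, ht] at he0
  obtain ⟨f, hf1, hf2⟩ := exists_dual hA hB _ hn
  refine ⟨e, f, hae, hbe, ?_, ?_, hf1⟩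
  · rw [← hA.neg_eq, hf2 a (Submodule.subset_span (by simp)), neg_zero]
  · rw [← hA.neg_eq, hf2 b (Submodule.subset_span (by simp)), neg_zero]

omit [FiniteDimensional F V] hB in
theorem IsX.add_line {a : V} {φ : V → F} (h : IsX B M a φ) {w : V} (hw : B a w = 0) (s t : F) :
    φ ((s + t) • w) = φ (s • w) + φ (t • w) := by
  rw [add_smul, h.add _ _ (by simp [hw]) (by simp [hw])]
  simp [hA.self_eq_zero]

omit [FiniteDimensional F V] hB in
/-- The restriction of `φ` to a line, as an additive map. -/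
def IsX.lineHom {a : V} {φ : V → F} (h : IsX B M a φ) {w : V} (hw : B a w = 0) : F →+ F where
  toFun s := φ (s • w)
  map_zero' := by simpa using h.zero
  map_add' := h.add_line hA hw

/-- `φ` is onto on the orthogonal complement of a hyperbolic pair `a, b`. -/
theorem IsX.exists_eq [Finite F] (hdim : 3 ≤ finrank F V) {a b : V} {φ : V → F}
    (h : IsX B M a φ) (hab : B a b = 1) (c : F) : ∃ w, B a w = 0 ∧ B b w = 0 ∧ φ w = c := by
  classical
  obtain ⟨e, f, hae, hbe, haf, hbf, hfe⟩ := exists_hyp_orth hA hB hdim hab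
  have := Fintype.ofFinite F
  obtain ⟨t, ht⟩ : ∃ t : F, t ∉ (Finset.univ.erase (0 : F)).image fun s => -(φ (s • e) / s) := by
    apply Finset.exists_mem_notMem_of_card_lt_card (t := Finset.univ) ?_ |>.imp fun _ h => h.2
    refine lt_of_le_of_lt Finset.card_image_le ?_
    exact Finset.card_erase_lt_of_mem (Finset.mem_univ _)
  let α : F →+ F := h.lineHom hA hae + AddMonoidHom.mulRight t
  have hα : ∀ s, α s = φ (s • e) + s * t := fun s => rfl
  have hinj : Function.Injective α := by
    rw [injective_iff_map_eq_zero]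
    intro s hs
    by_contra hs0
    apply ht
    refine Finset.mem_image.2 ⟨s, by simp [hs0], ?_⟩
    rw [hα] at hs
    field_simp
    linear_combination -hs
  obtain ⟨s, hs⟩ := Finite.surjective_of_injective hinj (c - φ (t • f))
  refine ⟨t • f + s • e, by simp [hae, haf], by simp [hbe, hbf], ?_⟩
  rw [h.add _ _ (by simp [haf]) (by simp [hae])]
  rw [hα] at hs
  simp only [map_smul, LinearMap.smul_apply, smul_eq_mul, hfe]
  linear_combination hs

end CfsgLib.Sp2Root
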