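import Mathlib
import Cfsg.Agent.Lib.OrthE.Compl
import Cfsg.Agent.Lib.Orth.Omega

/-!
The Dickson invariant on an orthogonal group of dimension at least three (including `O₄⁺(2)`), and
the subgroups containing the Eichler group in characteristic two.
-/

set_option autoImplicit false

namespace CfsgLib.Sp2Root

open CfsgLib.OrthE Module QuadraticMap

universe u v

variable {F : Type u} [Field F] {V : Type v} [AddCommGroup V] [Module F V]
variable {Q : QuadraticForm F V}

/-- The rank of `g - 1`. -/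
noncomputable def rk (g : V ≃ₗ[F] V) : ℕ :=
  finrank F (LinearMap.range ((g : V →ₗ[F] V) - LinearMap.id))

/-- The hyperbolic plane. -/
def hypPlane (F : Type u) [Field F] : QuadraticForm F (F × F) :=
  linMulLin (LinearMap.fst F F F) (LinearMap.snd F F F)

theorem polar_hypPlane (x y : F × F) : polar (hypPlane F) x y = x.1 * y.2 + x.2 * y.1 := by
  simp [polar, hypPlane]
  ring

theorem nondegenerate_prod (hQ : Nondeg Q) : (polarBilin (Q.prod (hypPlane F))).Nondegenerate := by
  refine Orth.nondegenerate_of_polar fun x hx => ?_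
  have h1 := hx (0, (1, 0))
  have h2 := hx (0, (0, 1))
  simp only [polar_prod, polar_hypPlane, polar_zero_right] at h1 h2
  refine Prod.ext (hQ _ fun y => ?_) (Prod.ext (by simpa using h2) (by simpa using h1))
  simpa [polar_prod, polar_hypPlane] using hx (y, 0)

/-- Extension of isometries by the identity on a hyperbolic plane. -/
def extHyp (Q : QuadraticForm F V) : O Q →* Orth.OG (Q.prod (hypPlane F)) where
  toFun g := ⟨g.1.prodCongr (LinearEquiv.refl F (F × F)), fun x => by simp [O_map]⟩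
  map_one' := Orth.OG.ext fun _ => rfl
  map_mul' _ _ := Orth.OG.ext fun _ => rfl

theorem extHyp_apply (g : O Q) (x : V × (F × F)) : (extHyp Q g).1 x = (g.1 x.1, x.2) := rfl

theorem finrank_movSpace_extHyp (g : O Q) : finrank F (Orth.movSpace (extHyp Q g)) = rk g.1 := by
  have : Orth.movSpace (extHyp Q g) =
      (LinearMap.range ((g.1 : V →ₗ[F] V) - LinearMap.id)).map (LinearMap.inl F V (F × F)) := by
    ext x
    rw [Orth.mem_movSpace]
    constructor
    · rintro ⟨y, rfl⟩
      refine ⟨g.1 y.1 - y.1, ⟨y.1, by simp⟩, ?_⟩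
      ext <;> simp [extHyp_apply]
    · rintro ⟨_, ⟨y, rfl⟩, rfl⟩
      refine ⟨(y, 0), ?_⟩
      ext <;> simp [extHyp_apply]
  rw [this, rk]
  exact (LinearEquiv.finrank_eq (Submodule.equivMapOfInjective (LinearMap.inl F V (F × F))
    LinearMap.inl_injective _)).symm

variable [Finite F] [FiniteDimensional F V]

theorem exists_dickson (hQ : Nondeg Q) (h3 : 3 ≤ finrank F V) :
    ∃ D : O Q →* ℤˣ, (∀ g, D g = 1 ↔ Even (rk g.1)) ∧ E Q ≤ D.ker ∧
      ∀ v, Q v ≠ 0 → D (refl Q v) = -1 := by
  have hQ' := nondegenerate_prod hQ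
  have h24 : Nat.card F ≠ 2 ∨ finrank F (V × (F × F)) ≠ 4 := by
    right
    simp only [finrank_prod, finrank_self]
    omega
  refine ⟨(Orth.dickson hQ' h24).comp (extHyp Q), fun g => ?_, E_le fun u v hu huv => ?_,
    fun v hv => ?_⟩
  · rw [MonoidHom.comp_apply, Orth.dickson_eq_one_iff, finrank_movSpace_extHyp]
  · have hu' : Q.prod (hypPlane F) (u, 0) = 0 := by simp [hu]
    have huv' : polar (Q.prod (hypPlane F)) (u, 0) (v, 0) = 0 := by simp [huv]
    have e : extHyp Q (eich Q u v) = Orth.eichler _ (u, 0) (v, 0) hu' huv' := by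
      refine Orth.OG.ext fun x => ?_
      rw [extHyp_apply, Orth.eichler_apply, eich_apply hu huv]
      refine Prod.ext ?_ (by simp)
      simp [polar_comm Q x.1]
    rw [MonoidHom.mem_ker, MonoidHom.comp_apply, e]
    exact ((Orth.mem_commutator_iff hQ' h24 _).1 (Orth.eichler_mem_commutator hQ' h24 hu' huv')).1
  · have e : extHyp Q (refl Q v) = Orth.refl _ (v, 0) := by
      refine Orth.OG.ext fun x => ?_
      rw [extHyp_apply, Orth.refl_apply, refl_apply]
      refine Prod.ext ?_ (by simp)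
      simp [polar_comm Q x.1]
    rw [MonoidHom.comp_apply, e]
    exact Orth.dickson_refl hQ' h24 (by simpa using hv)

variable [CharP F 2]

omit [FiniteDimensional F V] in
theorem exists_mul_self_eq (c : F) : ∃ s : F, s * s = c := by
  obtain ⟨s, hs⟩ := Orth.isSquare_of_charTwo (CharTwo.two_eq_zero (R := F)) c
  exact ⟨s, hs.symm⟩

theorem mem_E_or (hQ : Nondeg Q) (h3 : 3 ≤ finrank F V) {e f : V} (h : Hyp Q e f) {v : V}
    (hv : Q v ≠ 0) (g : O Q) : g ∈ E Q ∨ refl Q v * g ∈ E Q := by
  have := E_normal (Q := Q)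
  have hW := h.exists_nonsingular hQ h3
  let φ := QuotientGroup.mk' (E Q)
  have hφ : E Q ≤ φ.ker := by rw [QuotientGroup.ker_mk']
  have hr : φ (refl Q v) * φ (refl Q v) = 1 := by rw [← map_mul, refl_mul_self, map_one]
  let K : Subgroup (O Q ⧸ E Q) :=
    { carrier := {x | x = 1 ∨ x = φ (refl Q v)}
      mul_mem' := by
        rintro x y (rfl | rfl) (rfl | rfl) <;> simp [hr]
      one_mem' := Or.inl rfl
      inv_mem' := by
        rintro x (rfl | rfl)
        · exact Or.inl inv_one
        · exact Or.inr (inv_eq_of_mul_eq_one_right hr) }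
  have htop : K.comap φ = ⊤ := by
    refine eq_top_of_refl_of_siegel hQ _ (fun y hy => Or.inr ?_)
      fun u w _ _ _ => Or.inl (hφ (eich_mem_E u w))
    obtain ⟨s, hs⟩ := exists_mul_self_eq (Q y / Q v)
    refine h.map_refl_eq φ hQ hW hφ hv (a := s) ?_ (by rw [hs]; field_simp)
    rintro rfl
    rw [mul_zero, eq_comm, div_eq_zero_iff] at hs
    tauto
  have hg : g ∈ K.comap φ := htop ▸ Subgroup.mem_top g
  rcases hg with hg | hg
  · exact Or.inl ((QuotientGroup.eq_one_iff g).1 hg)
  · refine Or.inr ((QuotientGroup.eq_one_iff _).1 ?_)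
    change φ _ = 1
    rw [map_mul, hg, hr]

/-- A subgroup between the Eichler group and the orthogonal group. -/
theorem eq_O_or_even (hQ : Nondeg Q) (h3 : 3 ≤ finrank F V) {e f : V} (h : Hyp Q e f)
    {M : Subgroup (V ≃ₗ[F] V)} (hM : M ≤ O Q) (hE : ∀ g ∈ E Q, g.1 ∈ M) :
    M = O Q ∨ ∀ g, g ∈ M ↔ g ∈ O Q ∧ Even (rk g) := by
  obtain ⟨v, -, -, hv⟩ := h.exists_nonsingular hQ h3
  obtain ⟨D, hD1, hD2, hD3⟩ := exists_dickson hQ h3
  by_cases hr : (refl Q v).1 ∈ M
  · left
    refine le_antisymm hM fun g hg => ?_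
    rcases mem_E_or hQ h3 h hv ⟨g, hg⟩ with h1 | h1
    · exact hE _ h1
    · have h2 : (refl Q v).1 * g ∈ M := hE _ h1
      exact (M.mul_mem_cancel_left hr).1 h2
  · right
    intro g
    constructor
    · intro hg
      refine ⟨hM hg, ?_⟩
      rcases mem_E_or hQ h3 h hv ⟨g, hM hg⟩ with h1 | h1
      · exact (hD1 ⟨g, hM hg⟩).1 (MonoidHom.mem_ker.1 (hD2 h1))
      · have h2 : (refl Q v).1 * g ∈ M := hE _ h1
        exact (hr ((M.mul_mem_cancel_right hg).1 h2)).elim
    · rintro ⟨hg, hev⟩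
      rcases mem_E_or hQ h3 h hv ⟨g, hg⟩ with h1 | h1
      · exact hE _ h1
      · have h2 := hD2 h1
        rw [MonoidHom.mem_ker, map_mul, hD3 v hv, (hD1 ⟨g, hg⟩).2 hev] at h2
        exact absurd h2 (by decide)

end CfsgLib.Sp2Root
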