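import Mathlib
import Cfsg.Agent.Lib.Sp2Root.Basic

/-!
The case where some hyperbolic line contains three points of `Pt`: then every nonzero vector lies
in `Pt`, and `M` is the whole symplectic group unless the field has two elements and the dimension
is four.
-/

set_option autoImplicit false

namespace CfsgLib.Sp2Root

open CfsgLib.ClMax Module

universe u v

variable {F : Type u} [Field F] {V : Type v} [AddCommGroup V] [Module F V]
variable {B : LinearMap.BilinForm F V} {M : Subgroup (V ≃ₗ[F] V)}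

theorem IsX.exists_move (hA : B.IsAlt) {a b w : V} {φ : V → F} (h : IsX B M a φ) (hab : B a b = 1)
    (haw : B a w = 0) (hbw : B b w = 0) :
    ∃ k ∈ M, k a = a ∧ ∀ c : F, k (b + c • a) = b + w + (φ w + c) • a := by
  obtain ⟨k, hk, hkv⟩ := h.mem w haw
  have hwa : B w a = 0 := by rw [← hA.neg_eq, haw, neg_zero]
  have hwb : B w b = 0 := by rw [← hA.neg_eq, hbw, neg_zero]
  refine ⟨k, hk, by rw [hkv]; simp [hA.self_eq_zero, hwa], fun c => ?_⟩
  rw [hkv]
  simp only [map_add, map_smul, hA.self_eq_zero, hab, hwa, hwb, smul_eq_mul]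
  module

theorem IsX.pt_iff (hA : B.IsAlt) (hM : M ≤ spIso B) {a b w : V} {φ : V → F} (h : IsX B M a φ)
    (hab : B a b = 1) (haw : B a w = 0) (hbw : B b w = 0) (c : F) :
    Pt B M (b + w + (φ w + c) • a) ↔ Pt B M (b + c • a) := by
  obtain ⟨k, hk, -, hkv⟩ := h.exists_move hA hab haw hbw
  refine ⟨fun H => (H.conj hM (M.inv_mem hk)).congr ?_, fun H => (H.conj hM hk).congr (hkv c)⟩
  rw [← hkv]
  exact k.symm_apply_apply _

variable [CharP F 2]

theorem decomp (hA : B.IsAlt) {a b : V} (hab : B a b = 1) (x : V) :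
    ∃ w, B a w = 0 ∧ B b w = 0 ∧ x = B b x • a + B a x • b + w := by
  have hba : B b a = 1 := by rw [B_comm hA, hab]
  refine ⟨x + B b x • a + B a x • b, ?_, ?_, ?_⟩
  · simp [hA.self_eq_zero, hab, CharTwo.add_self_eq_zero]
  · simp [hA.self_eq_zero, hba, CharTwo.add_self_eq_zero]
  · match_scalars <;> grind

variable [Finite F] [FiniteDimensional F V] (hA : B.IsAlt) (hB : B.Nondegenerate)
  (hM : M ≤ spIso B)
include hA hB hM

theorem pt_add_smul_of_three (hdim : 3 ≤ finrank F V) {a b : V} (ha : Pt B M a) (hb : Pt B M b)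
    (hab : B a b = 1) (h3 : Pt B M (b + a)) (c : F) : Pt B M (b + c • a) := by
  obtain ⟨φ, hφ⟩ := ha
  have hba : B b a = 1 := by rw [B_comm hA, hab]
  have key : ∀ w, B a w = 0 → B b w = 0 → φ w = c ∨ φ w = c + 1 → Pt B M (b + c • a + w) := by
    intro w haw hbw h
    rcases h with h | h
    · have := (hφ.pt_iff hA hM hab haw hbw 0).2 (by simpa using hb)
      refine this.congr ?_
      rw [h]; module
    · have := (hφ.pt_iff hA hM hab haw hbw 1).2 (by simpa using h3)
      refine this.congr ?_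
      rw [h]; match_scalars <;> grind
  by_cases hc : c = 0
  · simpa [hc] using hb
  obtain ⟨w, haw, hbw, hw⟩ := hφ.exists_eq hA hB hdim hab c
  have hw0 : w ≠ 0 := by
    rintro rfl
    exact hc (hw ▸ hφ.zero)
  obtain ⟨k, hk0, hk⟩ : ∃ k : F, k ≠ 0 ∧ (φ (k • w) = 0 ∨ φ (k • w) = 1) := by
    by_cases hinj : Function.Injective (hφ.lineHom hA haw)
    · obtain ⟨k, hk⟩ := Finite.surjective_of_injective hinj 1
      refine ⟨k, ?_, Or.inr hk⟩
      rintro rfl
      rw [map_zero] at hk
      exact zero_ne_one hk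
    · rw [injective_iff_map_eq_zero] at hinj
      push Not at hinj
      obtain ⟨k, hk, hk0⟩ := hinj
      exact ⟨k, hk0, Or.inl hk⟩
  have h1 := key w haw hbw (Or.inl hw)
  have h2 := key ((1 + k) • w) (by simp [haw]) (by simp [hbw]) (by
    rw [hφ.add_line hA haw, one_smul, hw]
    rcases hk with hk | hk <;> simp [hk])
  have hwa : B w a = 0 := by rw [B_comm hA, haw]
  have hwb : B w b = 0 := by rw [B_comm hA, hbw]
  have hn : b + c • a + (1 + k) • w ∉ Submodule.span F {b + c • a + w} := by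
    intro h
    obtain ⟨s, hs⟩ := Submodule.mem_span_singleton.1 h
    have h1 := congrArg (B a) hs
    simp only [map_add, map_smul, hA.self_eq_zero, hab, haw, smul_eq_mul] at h1
    have hs1 : s = 1 := by grind
    rw [hs1, one_smul, add_smul, one_smul, ← add_assoc, left_eq_add] at hs
    exact smul_ne_zero hk0 hw0 hs
  have e : (k⁻¹ * (1 + k)) • (b + c • a + w) + k⁻¹ • (b + c • a + (1 + k) • w) = b + c • a := by
    match_scalars <;> grind
  have := h1.line hA hB hM h2 (by
    simp [hA.self_eq_zero, hab, hba, haw, hbw, hwa, hwb, CharTwo.add_self_eq_zero]) hn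
    (k⁻¹ * (1 + k)) k⁻¹ (by
      rw [e]
      intro h
      have := congrArg (B a) h
      simp [hA.self_eq_zero, hab] at this)
  exact this.congr e

theorem pt_of_three (hdim : 3 ≤ finrank F V) {a b : V} (ha : Pt B M a) (hb : Pt B M b)
    (hab : B a b = 1) (h3 : Pt B M (b + a)) {x : V} (hx : x ≠ 0) : Pt B M x := by
  have h1 : ∀ y, B a y = 1 → Pt B M y := by
    intro y hy
    obtain ⟨φ, hφ⟩ := id ha
    obtain ⟨w, haw, hbw, e⟩ := decomp hA hab y
    have := (hφ.pt_iff hA hM hab haw hbw (φ w + B b y)).2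
      (pt_add_smul_of_three hA hB hM hdim ha hb hab h3 _)
    refine this.congr ?_
    conv_rhs => rw [e, hy]
    match_scalars <;> grind
  by_cases hax : B a x = 0
  · by_cases hn : x ∈ Submodule.span F {a}
    · obtain ⟨c, rfl⟩ := Submodule.mem_span_singleton.1 hn
      refine ha.smul ?_
      rintro rfl
      exact hx (zero_smul _ _)
    obtain ⟨y, hy1, hy2⟩ := exists_dual hA hB _ (notMem_span_symm ha.ne hn)
    have hyx : B y x = 0 := hy2 x (Submodule.mem_span_singleton_self x)
    have hay : B a y = 1 := by rw [B_comm hA, hy1]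
    have e : (1 : F) • y + (1 : F) • (y + x) = x := by match_scalars <;> grind
    have := (h1 y hay).line hA hB hM (h1 (y + x) (by simp [hay, hax]))
      (by simp [hA.self_eq_zero, hyx]) (by
        intro h
        obtain ⟨s, hs⟩ := Submodule.mem_span_singleton.1 h
        have h1 := congrArg (B a) hs
        simp only [map_add, map_smul, hay, hax, smul_eq_mul, mul_one, add_zero] at h1
        rw [h1, one_smul, left_eq_add] at hs
        exact hx hs) 1 1 (by rwa [e])
    exact this.congr e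
  · exact (h1 ((B a x)⁻¹ • x) (by simp [hax])).of_smul

omit hM [Finite F] in
/-- If all nonzero vectors are in `Pt`, then `M` is transitive on them. -/
theorem exists_apply_eq (hdim : 3 ≤ finrank F V) (hP : ∀ x, x ≠ 0 → Pt B M x) {x y : V}
    (hx : x ≠ 0) (hy : y ≠ 0) : ∃ k ∈ M, k x = y := by
  have h1 : ∀ x y : V, y ≠ 0 → B x y = 0 → x ∉ Submodule.span F {y} → ∃ k ∈ M, k x = y := by
    intro x y hy hxy hn
    have h0 : x + y ≠ 0 := by
      intro h
      exact hn (Submodule.mem_span_singleton.2 ⟨-1, by rw [eq_neg_of_add_eq_zero_left h]; simp⟩)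
    obtain ⟨k, hk, -, hkx⟩ := (hP _ h0).exists_move hA hB (x := x)
      (by simp [hA.self_eq_zero, B_comm hA y x, hxy]) (by
        intro h
        obtain ⟨s, hs⟩ := Submodule.mem_span_singleton.1 h
        by_cases hs1 : s = 1
        · rw [hs1, one_smul, add_eq_left] at hs
          exact hy hs
        · apply hn
          refine Submodule.mem_span_singleton.2 ⟨(1 - s)⁻¹ * s, ?_⟩
          have : (1 - s) • x = s • y := by
            rw [sub_smul, one_smul]
            nth_rewrite 1 [← hs]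
            module
          rw [mul_smul, ← this, smul_smul, inv_mul_cancel₀ (sub_ne_zero.2 (Ne.symm hs1)),
            one_smul]) 1
    exact ⟨k, hk, by rw [hkx]; match_scalars <;> grind⟩
  have h2 : ∀ z : V, z ≠ 0 → B x z = 0 → B z y = 0 → x ∉ Submodule.span F {z} →
      z ∉ Submodule.span F {y} → ∃ k ∈ M, k x = y := by
    intro z hz h3 h4 h5 h6
    obtain ⟨k, hk, hkx⟩ := h1 x z hz h3 h5
    obtain ⟨k', hk', hkx'⟩ := h1 z y hy h4 h6
    exact ⟨k' * k, M.mul_mem hk' hk, by rw [LinearEquiv.mul_apply, hkx, hkx']⟩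
  by_cases hxy : B x y = 0
  · by_cases hn : x ∈ Submodule.span F {y}
    · obtain ⟨u, -, hu, hu0⟩ := exists_orth_not_mem B ⊤ (Submodule.span F {y}) ![y]
        (by have := finrank_span_singleton_le (F := F) y; simp; omega)
      have hyu : B y u = 0 := hu 0
      have hu1 : u ≠ 0 := by
        rintro rfl
        exact hu0 (Submodule.zero_mem _)
      obtain ⟨c, rfl⟩ := Submodule.mem_span_singleton.1 hn
      have hc : c ≠ 0 := by
        rintro rfl
        exact hx (zero_smul _ _)
      refine h2 u hu1 (by simp [hyu]) (by rw [B_comm hA, hyu]) (notMem_span_symm hx ?_) hu0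
      rwa [Submodule.span_singleton_smul_eq (IsUnit.mk0 c hc)]
    · exact h1 x y hy hxy hn
  · obtain ⟨z, hz, hxz, hyz⟩ := exists_orth_two (B := B) hdim x y
    refine h2 z hz hxz (by rw [B_comm hA, hyz]) (notMem_span_of_B hyz (by rwa [B_comm hA])) ?_
    exact notMem_span_symm hz (notMem_span_of_B hxz hxy)

theorem spIso_le_of_tvIn (hdim : 3 ≤ finrank F V) (hP : ∀ x, x ≠ 0 → Pt B M x) {x : V} {d : F}
    (hx : x ≠ 0) (hd : d ≠ 0) (h : TvIn B M x d) : spIso B ≤ M := by
  have h1 : ∀ y, TvIn B M y d := by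
    intro y
    by_cases hy : y = 0
    · rw [hy]; exact tvIn_zero' d
    obtain ⟨k, hk, rfl⟩ := exists_apply_eq hA hB hdim hP hx hy
    exact h.conj hM hk
  exact spIso_le_of_full hA hB hM fun y => full_of_sq hA hd fun c => tvIn_smul.1 (h1 _)

/-! ### No transvections -/

omit hB hM [CharP F 2] [Finite F] [FiniteDimensional F V] in
theorem hIn_unique {a : V} (hno : ∀ d, TvIn B M a d → d = 0) {w : V} (haw : B a w = 0) {d d' : F}
    (h : HIn B M a w d) (h' : HIn B M a w d') : d = d' := by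
  have := hno _ (tvIn_iff.2 ((h.div hA haw haw h').congr rfl (sub_self w) rfl))
  rwa [hA.self_eq_zero, sub_zero, sub_eq_zero] at this

theorem finrank_le_four (hP : ∀ x, x ≠ 0 → Pt B M x)
    (hno : ∀ x d, x ≠ 0 → TvIn B M x d → d = 0) : finrank F V ≤ 4 := by
  by_contra hlt
  push Not at hlt
  obtain ⟨a, ha, -⟩ := exists_orth_two (B := B) (by omega) 0 0
  obtain ⟨b, hb⟩ := exists_B_eq_one hA hB ha
  obtain ⟨φ, hφ⟩ := hP a ha
  obtain ⟨w, haw, -, hw⟩ := hφ.exists_eq hA hB (by omega) ((B_comm hA a b).trans hb) 1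
  have hwa : w ∉ Submodule.span F {a} := by
    intro h
    obtain ⟨c, rfl⟩ := Submodule.mem_span_singleton.1 h
    rw [hφ.self] at hw
    exact zero_ne_one hw
  have key : ∀ y, B a y = 0 → B w y = 0 → y ∉ Submodule.span F {a, w} → φ (w + y) = 1 := by
    intro y hay hwy hy
    have hy0 : y ≠ 0 := by
      rintro rfl
      exact hy (Submodule.zero_mem _)
    have hn : w ∉ Submodule.span F {a, y} := by
      intro h
      obtain ⟨s, t, e⟩ := Submodule.mem_span_pair.1 h
      by_cases ht : t = 0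
      · exact hwa (Submodule.mem_span_singleton.2 ⟨s, by simpa [ht] using e⟩)
      · refine hy (Submodule.mem_span_pair.2 ⟨-(t⁻¹ * s), t⁻¹, ?_⟩)
        rw [← e]
        match_scalars
        · field_simp; ring
        · field_simp
    obtain ⟨u, hu1, hu2⟩ := exists_dual hA hB _ hn
    have hua : B u a = 0 := hu2 a (Submodule.subset_span (by simp))
    have huy : B u y = 0 := hu2 y (Submodule.subset_span (by simp))
    obtain ⟨ψ, hψ⟩ := hP y hy0
    obtain ⟨k, hk, hkv⟩ := hψ.mem u (by rw [B_comm hA, huy])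
    have h1 := ((hφ.mem w haw).conj hM hk).congr (a' := a) (b' := w + y)
      (by rw [hkv]; simp [hua, B_comm hA y a, hay]) (by rw [hkv]; simp [hu1, B_comm hA y w, hwy]) hw
    exact hIn_unique hA (fun d => hno a d ha) (by simp [haw, hay])
      (hφ.mem _ (by simp [haw, hay])) h1
  obtain ⟨y, -, hy, hy0⟩ := exists_orth_not_mem B ⊤ (Submodule.span F {a, w}) ![a, w]
    (by have := finrank_span_pair_le (F := F) a w; simp; omega)
  have hay : B a y = 0 := hy 0
  have hwy : B w y = 0 := hy 1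
  have h1 := key y hay hwy hy0
  have h2 := key (w + y) (by simp [haw, hay]) (by simp [hA.self_eq_zero, hwy]) (by
    intro h
    exact hy0 ((Submodule.add_mem_iff_right _ (Submodule.subset_span (by simp))).1 h))
  rw [← add_assoc, add_self (F := F), zero_add] at h2
  rw [hφ.add _ _ haw hay, hw, h2, hwy] at h1
  grind

/-- `M` contains the map with symmetric matrix `(α, β; β, γ)` on the isotropic line `a, w`. -/
def SIn (B : LinearMap.BilinForm F V) (M : Subgroup (V ≃ₗ[F] V)) (a w : V) (α β γ : F) : Prop :=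
  ∃ g ∈ M, ∀ v, g v = v + (α * B a v + β * B w v) • a + (β * B a v + γ * B w v) • w

omit hB hM [Finite F] [FiniteDimensional F V] in
theorem SIn.add {a w : V} (haw : B a w = 0) {α β γ α' β' γ' : F} (h : SIn B M a w α β γ)
    (h' : SIn B M a w α' β' γ') : SIn B M a w (α + α') (β + β') (γ + γ') := by
  obtain ⟨g, hg, h⟩ := h
  obtain ⟨g', hg', h'⟩ := h'
  refine ⟨g * g', M.mul_mem hg hg', fun v => ?_⟩
  rw [LinearEquiv.mul_apply, h, h']
  simp only [map_add, map_smul, hA.self_eq_zero, haw, B_comm hA w a, smul_eq_mul]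
  module

omit [Finite F] in
theorem hIn_flip {a w : V} (ha : a ≠ 0) (hw : Pt B M w) (haw : B a w = 0)
    (hn : w ∉ Submodule.span F {a}) (h : HIn B M a w 1) (μ : F) : HIn B M w (μ • a) (μ ^ 2) := by
  obtain ⟨k, hk, hkw, hka⟩ := hw.exists_move hA hB ((B_comm hA w a).trans haw)
    (notMem_span_symm ha hn) μ
  have h1 : SIn B M a w 1 (1 + μ) (μ ^ 2) := by
    obtain ⟨g, hg, hgv⟩ := (h.conj hM hk).congr hka hkw rfl
    refine ⟨g, hg, fun v => ?_⟩
    rw [hgv]
    simp only [map_add, map_smul, LinearMap.add_apply, LinearMap.smul_apply, smul_eq_mul]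
    match_scalars <;> grind
  have h2 : SIn B M a w 1 1 0 := by
    obtain ⟨g, hg, hgv⟩ := h
    refine ⟨g, hg, fun v => ?_⟩
    rw [hgv]
    module
  obtain ⟨g, hg, hgv⟩ := h1.add hA haw h2
  refine ⟨g, hg, fun v => ?_⟩
  rw [hgv]
  simp only [map_smul, LinearMap.smul_apply, smul_eq_mul]
  match_scalars <;> grind

omit [Finite F] in
theorem sIn_of_hIn {a w : V} (ha : Pt B M a) (hw : Pt B M w) (haw : B a w = 0)
    (hn : w ∉ Submodule.span F {a}) (h : HIn B M a w 1) (μ ν : F) :
    SIn B M a w (μ ^ 2) (μ + ν) (ν ^ 2) := by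
  have h1 := hIn_flip hA hB hM ha.ne hw haw hn h
  have h2 := hIn_flip hA hB hM hw.ne ha ((B_comm hA w a).trans haw) (notMem_span_symm ha.ne hn)
    (by simpa using h1 1) μ
  have h3 : SIn B M a w (μ ^ 2) μ 0 := by
    obtain ⟨g, hg, hgv⟩ := h2
    refine ⟨g, hg, fun v => ?_⟩
    rw [hgv]
    simp only [map_smul, LinearMap.smul_apply, smul_eq_mul]
    module
  have h4 : SIn B M a w 0 ν (ν ^ 2) := by
    obtain ⟨g, hg, hgv⟩ := h1 ν
    refine ⟨g, hg, fun v => ?_⟩
    rw [hgv]
    simp only [map_smul, LinearMap.smul_apply, smul_eq_mul]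
    module
  simpa using h3.add hA haw h4

omit [CharP F 2] hM in
theorem exists_hIn_one (hdim : 3 ≤ finrank F V) {a b : V} (ha : Pt B M a) (hab : B a b = 1) :
    ∃ w, B a w = 0 ∧ B b w = 0 ∧ w ∉ Submodule.span F {a} ∧ HIn B M a w 1 := by
  obtain ⟨φ, hφ⟩ := ha
  obtain ⟨w, haw, hbw, hw⟩ := hφ.exists_eq hA hB hdim hab 1
  refine ⟨w, haw, hbw, fun h => ?_, (hφ.mem w haw).congr rfl rfl hw⟩
  obtain ⟨c, rfl⟩ := Submodule.mem_span_singleton.1 h
  rw [hφ.self] at hw
  exact zero_ne_one hw

theorem eq_zero_or_one (hdim : 3 ≤ finrank F V) (hP : ∀ x, x ≠ 0 → Pt B M x)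
    (hno : ∀ x d, x ≠ 0 → TvIn B M x d → d = 0) (μ : F) : μ = 0 ∨ μ = 1 := by
  by_contra hμ
  push Not at hμ
  obtain ⟨a, ha, -⟩ := exists_orth_two (B := B) hdim 0 0
  obtain ⟨b, hb⟩ := exists_B_eq_one hA hB ha
  obtain ⟨w, haw, -, hn, h⟩ := exists_hIn_one hA hB hdim (hP a ha) ((B_comm hA a b).trans hb)
  have hw : w ≠ 0 := by
    rintro rfl
    exact hn (Submodule.zero_mem _)
  have h1 : μ + 1 ≠ 0 := by grind
  obtain ⟨ν, hν⟩ : ∃ ν, μ + ν = μ * ν := ⟨μ / (μ + 1), by field_simp; grind⟩
  obtain ⟨g, hg, hgv⟩ := sIn_of_hIn hA hB hM (hP a ha) (hP w hw) haw hn h μ ν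
  refine one_ne_zero (hno (μ • a + ν • w) 1 ?_ ⟨g, hg, fun v => ?_⟩)
  · intro h0
    apply notMem_span_symm ha hn
    refine Submodule.mem_span_singleton.2 ⟨-(μ⁻¹ * ν), ?_⟩
    rw [neg_smul, mul_smul, eq_neg_of_add_eq_zero_right h0, smul_neg, neg_neg, smul_smul,
      inv_mul_cancel₀ hμ.1, one_smul]
  · rw [hgv, hν]
    simp only [map_add, map_smul, LinearMap.add_apply, LinearMap.smul_apply, smul_eq_mul]
    module

/-- Over the field with two elements `M` is transitive on hyperbolic pairs. -/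
theorem exists_apply_pair (hdim : 3 ≤ finrank F V) (hP : ∀ x, x ≠ 0 → Pt B M x)
    (hF : ∀ μ : F, μ = 0 ∨ μ = 1) {a b x y : V} (hab : B a b = 1) (hxy : B x y = 1) :
    ∃ k ∈ M, k a = x ∧ k b = y := by
  have ha : a ≠ 0 := by
    rintro rfl
    simp at hab
  have hx : x ≠ 0 := by
    rintro rfl
    simp at hxy
  have key : ∀ z, B a z = 1 → ∃ k ∈ M, k a = a ∧ k b = z := by
    intro z hz
    obtain ⟨φ, hφ⟩ := hP a ha
    obtain ⟨u, hau, hbu, e⟩ := decomp hA hab z
    obtain ⟨k, hk, hka, hkv⟩ := hφ.exists_move hA hab hau hbu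
    rcases hF (φ u + B b z) with h | h
    · refine ⟨k, hk, hka, ?_⟩
      have := hkv 0
      rw [zero_smul, add_zero] at this
      rw [this]
      conv_rhs => rw [e, hz]
      match_scalars <;> grind
    · obtain ⟨w, haw, hbw, hn, hw⟩ := exists_hIn_one hA hB hdim (hP a ha) hab
      have hw0 : w ≠ 0 := by
        rintro rfl
        exact hn (Submodule.zero_mem _)
      obtain ⟨g, hg, hgv⟩ := sIn_of_hIn hA hB hM (hP a ha) (hP w hw0) haw hn hw 1 1
      have hga : g a = a := by rw [hgv]; simp [hA.self_eq_zero, B_comm hA w a, haw]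
      have hgb : g b = b + (1 : F) • a := by
        rw [hgv]
        simp [hab, B_comm hA w b, hbw, CharTwo.add_self_eq_zero]
      refine ⟨k * g, M.mul_mem hk hg, by rw [LinearEquiv.mul_apply, hga, hka], ?_⟩
      rw [LinearEquiv.mul_apply, hgb, hkv]
      conv_rhs => rw [e, hz]
      match_scalars <;> grind
  obtain ⟨g, hg, hga⟩ := exists_apply_eq hA hB hdim hP ha hx
  obtain ⟨k, hk, hka, hkb⟩ := key (g.symm y) (by rw [spIso_symm_left (hM hg), hga, hxy])
  exact ⟨g * k, M.mul_mem hg hk, by rw [LinearEquiv.mul_apply, hka, hga],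
    by rw [LinearEquiv.mul_apply, hkb, LinearEquiv.apply_symm_apply]⟩

omit hM [CharP F 2] in
theorem card_hyp_pairs (hF : Nat.card F = 2) (hd : finrank F V = 4) :
    Nat.card {p : V × V // B p.1 p.2 = 1} = 120 := by
  classical
  have : Finite V := Module.finite_of_finite F
  have := Fintype.ofFinite V
  have hV : Fintype.card V = 16 := by
    rw [← Nat.card_eq_fintype_card, Module.natCard_eq_pow_finrank (K := F), hF, hd]
    rfl
  have h1 : ∀ x : V, Nat.card {y // B x y = 1} = if x = 0 then 0 else 8 := by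
    intro x
    split_ifs with hx
    · subst hx
      have : IsEmpty {y // B 0 y = 1} := ⟨fun y => by simpa using y.2⟩
      exact Nat.card_of_isEmpty
    · obtain ⟨b, hb⟩ := exists_B_eq_one hA hB hx
      have hb' : B x (-b) = 1 := by rw [map_neg, hA.neg_eq, hb]
      have e : {y // B x y = 1} ≃ LinearMap.ker (B x) :=
        { toFun := fun y => ⟨y.1 + b, by
            rw [LinearMap.mem_ker, map_add, y.2, ← hA.neg_eq, hb, add_neg_cancel]⟩
          invFun := fun z => ⟨z.1 + -b, by rw [map_add, z.2, hb', zero_add]⟩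
          left_inv := fun y => by simp
          right_inv := fun z => by simp }
      have hr : LinearMap.range (B x) = ⊤ :=
        LinearMap.range_eq_top.2 fun c => ⟨c • -b, by rw [map_smul, hb', smul_eq_mul, mul_one]⟩
      have h3 := LinearMap.finrank_range_add_finrank_ker (B x)
      rw [hr, finrank_top, finrank_self, hd] at h3
      rw [Nat.card_congr e, Module.natCard_eq_pow_finrank (K := F), hF,
        show finrank F (LinearMap.ker (B x)) = 3 by omega]
      rfl
  rw [Nat.card_congr (Equiv.subtypeProdEquivSigmaSubtype fun x y => B x y = 1), Nat.card_sigma]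
  simp only [h1]
  rw [Finset.sum_ite, Finset.sum_const_zero, Finset.sum_const, Finset.filter_ne',
    Finset.card_erase_of_mem (Finset.mem_univ _), Finset.card_univ, hV]
  rfl

theorem dvd_card (hF : Nat.card F = 2) (hd : finrank F V = 4) (hP : ∀ x, x ≠ 0 → Pt B M x) :
    120 ∣ Nat.card M := by
  have hF' : ∀ μ : F, μ = 0 ∨ μ = 1 := by
    intro μ
    obtain ⟨y, -, hy⟩ := (Nat.card_eq_two_iff' (0 : F)).1 hF
    by_cases h : μ = 0
    · exact Or.inl h
    · exact Or.inr ((hy μ h).trans (hy 1 one_ne_zero).symm)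
  obtain ⟨a, ha, -⟩ := exists_orth_two (B := B) (by omega) 0 0
  obtain ⟨b, hb⟩ := exists_B_eq_one hA hB ha
  have e : MulAction.orbit M (b, a) = {p : V × V | B p.1 p.2 = 1} := by
    ext ⟨x, y⟩
    constructor
    · rintro ⟨k, hk⟩
      have h1 : (k : V ≃ₗ[F] V) b = x := congrArg Prod.fst hk
      have h2 : (k : V ≃ₗ[F] V) a = y := congrArg Prod.snd hk
      change B x y = 1
      rw [← h1, ← h2, hM k.2, hb]
    · intro h
      obtain ⟨k, hk, h1, h2⟩ := exists_apply_pair hA hB hM (by omega) hP hF' hb h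
      exact ⟨⟨k, hk⟩, Prod.ext h1 h2⟩
  have := (MulAction.stabilizer M (b, a)).index_dvd_card
  rwa [MulAction.index_stabilizer, e, ← Nat.card_coe_set_eq,
    show Nat.card {p : V × V | B p.1 p.2 = 1} = 120 from card_hyp_pairs hA hB hF hd] at this

end CfsgLib.Sp2Root
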