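import Mathlib
import Cfsg.Agent.Lib.Sp2Root.Trans
import Cfsg.Agent.Lib.Sp2Root.Dickson

/-!
The case where no hyperbolic line contains three points of `Pt`: then `M` lies between the Eichler
group and the orthogonal group of a quadratic form polarizing to `B`.
-/

set_option autoImplicit false

namespace CfsgLib.Sp2Root

open CfsgLib.ClMax CfsgLib.OrthE Module QuadraticMap

universe u v

variable {F : Type u} [Field F] [CharP F 2] [Finite F]

theorem hua (α β : F →+ F) (hα : Function.Injective α) (hβ : Function.Injective β)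
    (h : ∀ s, α s ≠ 0 → β (s / α s) = (α s)⁻¹) (s : F) : α s = s ^ 2 * α 1 ∧ β s = α s := by
  let e : F ≃+ F := AddEquiv.ofBijective α ⟨hα, Finite.surjective_of_injective hα⟩
  have he : ∀ t, α (e.symm t) = t := fun t => e.apply_symm_apply t
  have h1 : ∀ t, t ≠ 0 → β (e.symm t / t) = t⁻¹ := fun t ht => by
    have := h (e.symm t) (by rwa [he])
    rwa [he] at this
  have h2 : ∀ x, e.symm (x ^ 2) = x * e.symm 1 := by
    intro x
    by_cases hx : x = 0
    · simp [hx]
    by_cases hx1 : x = 1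
    · simp [hx1]
    have hx2 : x + 1 ≠ 0 := by grind
    have hx3 : x ^ 2 + x ≠ 0 := by grind
    have h3 : e.symm x / x + e.symm (x + 1) / (x + 1) = e.symm (x ^ 2 + x) / (x ^ 2 + x) := by
      apply hβ
      rw [map_add, h1 _ hx, h1 _ hx2, h1 _ hx3]
      grind
    rw [map_add, map_add] at h3
    grind
  have hc : e.symm 1 ≠ 0 := by simp
  have h3 : ∀ x, α (x * e.symm 1) = x ^ 2 := fun x => by rw [← h2, he]
  have h4 : ∀ s, α s = (s / e.symm 1) ^ 2 := fun s => by rw [← h3, div_mul_cancel₀ _ hc]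
  refine ⟨by rw [h4, h4]; ring, ?_⟩
  by_cases hs : s = 0
  · simp [hs]
  have h5 := h1 ((e.symm 1 / s) ^ 2) (pow_ne_zero _ (div_ne_zero hc hs))
  rw [h2, show e.symm 1 / s * e.symm 1 / (e.symm 1 / s) ^ 2 = s by field_simp] at h5
  rw [h5, h4, ← inv_pow, inv_div]

variable {V : Type v} [AddCommGroup V] [Module F V]
variable {B : LinearMap.BilinForm F V} {M : Subgroup (V ≃ₗ[F] V)}

variable (hA : B.IsAlt) (hM : M ≤ spIso B)
  (hI : ∀ a b, Pt B M a → Pt B M b → B a b = 1 → ¬ Pt B M (b + a))
include hA hM hI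

theorem IsX.pt_iff_eq {a b w : V} {φ : V → F} (h : IsX B M a φ) (hb : Pt B M b) (hab : B a b = 1)
    (haw : B a w = 0) (hbw : B b w = 0) (c : F) : Pt B M (b + w + c • a) ↔ φ w = c := by
  have h1 := h.pt_iff hA hM hab haw hbw (φ w + c)
  rw [← add_assoc, CharTwo.add_self_eq_zero, zero_add] at h1
  rw [h1]
  constructor
  · intro h2
    by_contra hne
    have hd : φ w + c ≠ 0 := by grind
    obtain ⟨μ, hμ⟩ := exists_mul_self_eq (φ w + c)⁻¹
    have hμ0 : μ ≠ 0 := by
      rintro rfl
      exact inv_ne_zero hd (by simpa using hμ.symm)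
    refine hI ((μ * (φ w + c)) • a) (μ • b) (Pt.smul ⟨φ, h⟩ (mul_ne_zero hμ0 hd)) (hb.smul hμ0) ?_
      ((h2.smul hμ0).congr (by module))
    simp only [map_smul, LinearMap.smul_apply, smul_eq_mul, hab, mul_one]
    rw [← mul_assoc, hμ, inv_mul_cancel₀ hd]
  · rintro rfl
    simpa [CharTwo.add_self_eq_zero] using hb

variable [FiniteDimensional F V] (hB : B.Nondegenerate)
include hB

theorem null_line {a b w : V} {φ ψ : V → F} (hφ : IsX B M a φ) (hψ : IsX B M b ψ)
    (hab : B a b = 1) (haw : B a w = 0) (hbw : B b w = 0) (h : φ w = 0) (s : F) :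
    φ (s • w) = 0 ∧ ψ (s • w) = 0 := by
  by_cases hw : w = 0
  · simp [hw, hφ.zero, hψ.zero]
  have hba : B b a = 1 := by rw [B_comm hA, hab]
  have hb : Pt B M b := ⟨ψ, hψ⟩
  have ha : Pt B M a := ⟨φ, hφ⟩
  have h1 : Pt B M (b + w) := by
    simpa using (hφ.pt_iff_eq hA hM hI hb hab haw hbw 0).2 h
  have hn : b + w ∉ Submodule.span F {b} := by
    intro h
    obtain ⟨t, ht⟩ := Submodule.mem_span_singleton.1 h
    have h2 := congrArg (B a) ht
    simp only [map_add, map_smul, hab, haw, smul_eq_mul, mul_one, add_zero] at h2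
    rw [h2, one_smul, left_eq_add] at ht
    exact hw ht
  have h2 := hb.line hA hB hM h1 (by simp [hA.self_eq_zero, hbw]) hn
  have h3 : Pt B M w := by
    have e : (1 : F) • b + (1 : F) • (b + w) = w := by match_scalars <;> grind
    exact (h2 1 1 (by rwa [e])).congr e
  constructor
  · have e : (1 + s) • b + s • (b + w) = b + s • w + (0 : F) • a := by match_scalars <;> grind
    refine (hφ.pt_iff_eq hA hM hI hb hab (by simp [haw]) (by simp [hbw]) 0).1
      ((h2 _ _ ?_).congr e)
    rw [e]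
    intro h0
    have := congrArg (B a) h0
    simp [hab, haw] at this
  · refine (hψ.pt_iff_eq hA hM hI ha hba (by simp [hbw]) (by simp [haw]) 0).1 ?_
    have := h3.add_smul hA hB hM ha ((B_comm hA w a).trans haw)
      (notMem_span_of_B hbw (by simp [hba])) s
    simpa using this

theorem sq_line {a b w : V} {φ ψ : V → F} (hφ : IsX B M a φ) (hψ : IsX B M b ψ)
    (hab : B a b = 1) (haw : B a w = 0) (hbw : B b w = 0) (s : F) :
    φ (s • w) = s ^ 2 * φ w ∧ ψ w = φ w := by
  have hba : B b a = 1 := by rw [B_comm hA, hab]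
  by_cases h : φ w = 0
  · have h1 := null_line hA hM hI hB hφ hψ hab haw hbw h
    exact ⟨by rw [(h1 s).1, h, mul_zero], by simpa [h] using (h1 1).2⟩
  have hα : Function.Injective (hφ.lineHom hA haw) := by
    rw [injective_iff_map_eq_zero]
    intro t ht
    by_contra ht0
    have := (null_line hA hM hI hB hφ hψ hab (by simp [haw]) (by simp [hbw]) ht t⁻¹).1
    rw [smul_smul, inv_mul_cancel₀ ht0, one_smul] at this
    exact h this
  have hβ : Function.Injective (hψ.lineHom hA hbw) := by
    rw [injective_iff_map_eq_zero]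
    intro t ht
    by_contra ht0
    have := (null_line hA hM hI hB hψ hφ hba (by simp [hbw]) (by simp [haw]) ht t⁻¹).2
    rw [smul_smul, inv_mul_cancel₀ ht0, one_smul] at this
    exact h this
  have key := hua _ _ hα hβ fun t ht => by
    change φ (t • w) ≠ 0 at ht
    change ψ ((t / φ (t • w)) • w) = (φ (t • w))⁻¹
    have h1 := (hφ.pt_iff_eq hA hM hI ⟨ψ, hψ⟩ hab (w := t • w) (by simp [haw]) (by simp [hbw])
      _).2 rfl
    refine (hψ.pt_iff_eq hA hM hI ⟨φ, hφ⟩ hba (by simp [hbw]) (by simp [haw]) _).1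
      ((h1.smul (inv_ne_zero ht)).congr ?_)
    match_scalars <;> field_simp
  have h1 := (key s).1
  have h2 := (key 1).2
  change φ (s • w) = s ^ 2 * φ ((1 : F) • w) at h1
  change ψ ((1 : F) • w) = φ ((1 : F) • w) at h2
  rw [one_smul] at h1 h2
  exact ⟨h1, h2⟩

theorem exists_quad {a b : V} {φ ψ : V → F} (hφ : IsX B M a φ) (hψ : IsX B M b ψ)
    (hab : B a b = 1) : ∃ Q : QuadraticForm F V, (∀ u v, polar Q u v = B u v) ∧
      ∀ s t w, B a w = 0 → B b w = 0 → Q (s • a + t • b + w) = s * t + φ w := by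
  have hba : B b a = 1 := by rw [B_comm hA, hab]
  have ha : ∀ v, B a (v + B b v • a + B a v • b) = 0 := fun v => by
    simp [hA.self_eq_zero, hab, CharTwo.add_self_eq_zero]
  have hb : ∀ v, B b (v + B b v • a + B a v • b) = 0 := fun v => by
    simp [hA.self_eq_zero, hba, CharTwo.add_self_eq_zero]
  have hadd : ∀ u v, B a (u + v) * B b (u + v) + φ (u + v + B b (u + v) • a + B a (u + v) • b) =
      B a u * B b u + φ (u + B b u • a + B a u • b) +
        (B a v * B b v + φ (v + B b v • a + B a v • b)) + B u v := by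
    intro u v
    have e : u + v + B b (u + v) • a + B a (u + v) • b =
        (u + B b u • a + B a u • b) + (v + B b v • a + B a v • b) := by
      simp only [map_add]; module
    rw [e, hφ.add _ _ (ha u) (ha v)]
    simp only [map_add, map_smul, LinearMap.add_apply, LinearMap.smul_apply, smul_eq_mul,
      hA.self_eq_zero, hab, hba, B_comm hA u a, B_comm hA u b]
    grind
  let Q : QuadraticForm F V :=
    { toFun := fun v => B a v * B b v + φ (v + B b v • a + B a v • b)
      toFun_smul := fun c v => by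
        have e : c • v + B b (c • v) • a + B a (c • v) • b = c • (v + B b v • a + B a v • b) := by
          simp only [map_smul, smul_eq_mul]; module
        rw [e, (sq_line hA hM hI hB hφ hψ hab (ha v) (hb v) c).1]
        simp only [map_smul, smul_eq_mul]
        ring
      exists_companion' := ⟨B, hadd⟩ }
  have hQ : ∀ v, Q v = B a v * B b v + φ (v + B b v • a + B a v • b) := fun v => rfl
  refine ⟨Q, fun u v => ?_, fun s t w haw hbw => ?_⟩
  · rw [polar, hQ, hQ, hQ, hadd]; ring
  · have h1 : B a (s • a + t • b + w) = t := by simp [hA.self_eq_zero, hab, haw]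
    have h2 : B b (s • a + t • b + w) = s := by simp [hA.self_eq_zero, hba, hbw]
    have e : s • a + t • b + w + s • a + t • b = w := by match_scalars <;> grind
    rw [hQ, h1, h2, e, mul_comm]

theorem exists_quad_eq (hdim : 3 ≤ finrank F V) {a b : V} (ha : Pt B M a) (hb : Pt B M b)
    (hab : B a b = 1) : ∃ Q : QuadraticForm F V, (∀ u v, polar Q u v = B u v) ∧
      (M = O Q ∨ ∀ g, g ∈ M ↔ g ∈ O Q ∧ Even (rk g)) := by
  obtain ⟨φ, hφ⟩ := id ha
  obtain ⟨ψ, hψ⟩ := id hb
  obtain ⟨Q, hpol, hQ⟩ := exists_quad hA hM hI hB hφ hψ hab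
  have hba : B b a = 1 := by rw [B_comm hA, hab]
  have hQw : ∀ w, B a w = 0 → B b w = 0 → Q w = φ w := fun w h1 h2 => by
    simpa using hQ 0 0 w h1 h2
  have hQa : Q a = 0 := by simpa [hφ.zero] using hQ 1 0 0 (by simp) (by simp)
  have hQb : Q b = 0 := by simpa [hφ.zero] using hQ 0 1 0 (by simp) (by simp)
  have hN : Nondeg Q := fun x hx => hB.1 x fun y => by rw [← hpol, hx]
  have hyp : Hyp Q a b := ⟨hQa, hQb, by rw [hpol, hab]⟩
  have hW := hyp.exists_nonsingular hN hdim
  have heich : ∀ e w, Q e = 0 → B e w = 0 → HIn B M e w (Q w) → (eich Q e w).1 ∈ M := by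
    rintro e w he hew ⟨g, hg, hgv⟩
    convert hg using 1
    ext v
    rw [hgv, eich_apply he (by rw [hpol, hew]), hpol, hpol, B_comm hA v w, B_comm hA v e]
    match_scalars <;> grind
  have hE : E Q ≤ M.comap (O Q).subtype := by
    refine hyp.E_le hN hW _ (fun w h1 h2 => ?_) fun w h1 h2 => ?_
    · rw [hpol, B_comm hA] at h1 h2
      exact heich a w hQa h1 ((hφ.mem w h1).congr rfl rfl (hQw w h1 h2).symm)
    · rw [hpol, B_comm hA] at h1 h2
      exact heich b w hQb h2 ((hψ.mem w h2).congr rfl rfl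
        ((sq_line hA hM hI hB hφ hψ hab h1 h2 1).2.trans (hQw w h1 h2).symm))
  have hP1 : ∀ x, x ≠ 0 → Q x = 0 → Pt B M x := by
    intro x hx hx0
    obtain ⟨g, hg, c, -, hc⟩ := hyp.exists_E_singular hN hW ha.ne hx hQa hx0
    exact ((ha.conj hM (hE hg)).congr hc).of_smul
  have hP2 : ∀ x, Pt B M x → Q x = 0 := by
    intro x hx
    obtain ⟨w, haw, hbw, e⟩ := decomp hA hab x
    generalize B b x = s at e
    generalize B a x = t at e
    subst e
    rw [hQ _ _ _ haw hbw]
    by_cases ht : t = 0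
    · by_cases hs : s = 0
      · subst hs ht
        simp only [zero_smul, zero_add, mul_zero] at hx ⊢
        refine (hφ.pt_iff_eq hA hM hI hb hab haw hbw 0).1 ?_
        have := hx.add_smul hA hB hM hb ((B_comm hA w b).trans hbw)
          (notMem_span_of_B haw (by simp [hab])) 1
        simpa using this
      · have h1 := (hψ.pt_iff_eq hA hM hI ha hba (w := s⁻¹ • w) (by simp [hbw]) (by simp [haw])
          (s⁻¹ * t)).1 ((hx.smul (inv_ne_zero hs)).congr (by match_scalars <;> field_simp))
        rw [(sq_line hA hM hI hB hφ hψ hab (by simp [haw]) (by simp [hbw]) 1).2,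
          (sq_line hA hM hI hB hφ hψ hab haw hbw _).1] at h1
        grind
    · have h1 := (hφ.pt_iff_eq hA hM hI hb hab (w := t⁻¹ • w) (by simp [haw]) (by simp [hbw])
        (t⁻¹ * s)).1 ((hx.smul (inv_ne_zero ht)).congr (by match_scalars <;> field_simp))
      rw [(sq_line hA hM hI hB hφ hψ hab haw hbw _).1] at h1
      grind
  have hMO : M ≤ O Q := by
    intro g hg x
    have h0 : ∀ y, Q y = 0 → Q (g y) = Q y := by
      intro y hy
      by_cases hy0 : y = 0
      · simp [hy0]
      · rw [hy, hP2 _ ((hP1 y hy0 hy).conj hM hg)]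
    have hadd : ∀ y z, Q (g y) = Q y → Q (g z) = Q z → Q (g (y + z)) = Q (y + z) := by
      intro y z hy hz
      rw [map_add, OrthE.Q_add, OrthE.Q_add, hy, hz, hpol, hpol, hM hg]
    have hsa : ∀ s : F, Q (g (s • a)) = Q (s • a) := fun s =>
      h0 _ (by rw [OrthE.Q_smul, hQa, mul_zero])
    have hsb : ∀ s : F, Q (g (s • b)) = Q (s • b) := fun s =>
      h0 _ (by rw [OrthE.Q_smul, hQb, mul_zero])
    obtain ⟨w, haw, hbw, e⟩ := decomp hA hab x
    have e' : x = (B b x + 1) • a + (B a x + φ w) • b + ((1 : F) • a + φ w • b + w) := by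
      conv_lhs => rw [e]
      match_scalars <;> grind
    rw [e']
    refine hadd _ _ (hadd _ _ (hsa _) (hsb _)) (h0 _ ?_)
    rw [hQ _ _ _ haw hbw, one_mul, CharTwo.add_self_eq_zero]
  exact ⟨Q, hpol, eq_O_or_even hN hdim hyp hMO fun g hg => hE hg⟩

end CfsgLib.Sp2Root
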