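import Mathlib
import Cfsg.Agent.Lib.Sp2Root.Orth

/-!
Normal `2`-subgroups of the stabilizer of a vector in a symplectic group in characteristic two, and
the classification of irreducible subgroups with a vector in `Pt`.
-/

set_option autoImplicit false

namespace CfsgLib.Sp2Root

open CfsgLib.ClMax CfsgLib.OrthE Module QuadraticMap

universe u v

variable {F : Type u} [Field F] [CharP F 2] {V : Type v} [AddCommGroup V] [Module F V]
variable {B : LinearMap.BilinForm F V} {M P : Subgroup (V ≃ₗ[F] V)} {a : V}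

section core

variable (hA : B.IsAlt) (hP1 : ∀ x ∈ P, x ∈ spIso B ∧ x a = a)
  (hP2 : ∀ x ∈ P, ∀ t ∈ spIso B, t a = a → t * x * t⁻¹ ∈ P)
include hA hP1 hP2

theorem exists_comm {x : V ≃ₗ[F] V} (hx : x ∈ P) {z : V} (haz : B a z = 0) (c : F) :
    ∃ y ∈ P, ∀ v, y v = v + (c * B z v) • z + (c * B (x z) (v + (c * B z v) • z)) • x z := by
  have ht : ∀ v, tv hA z c (tv hA z c v) = v := fun v => by
    simp only [tv_apply, map_add, map_smul, hA.self_eq_zero]
    match_scalars <;> grind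
  have hti : ∀ v, (tv hA z c)⁻¹ v = tv hA z c v := fun v => by
    nth_rewrite 1 [← ht v]
    exact (tv hA z c).symm_apply_apply _
  refine ⟨x * (tv hA z c * x⁻¹ * (tv hA z c)⁻¹), P.mul_mem hx (hP2 _ (P.inv_mem hx) _
    (tv_mem hA z c) (by rw [tv_apply, B_comm hA z a, haz]; simp)), fun v => ?_⟩
  rw [LinearEquiv.mul_apply, LinearEquiv.mul_apply, LinearEquiv.mul_apply, hti, ← tv_apply hA z c v,
    tv_apply hA z c (x⁻¹ _), map_add, map_smul]
  have h1 : ∀ u, x (x⁻¹ u) = u := fun u => x.apply_symm_apply u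
  have h2 : ∀ u, B z (x⁻¹ u) = B (x z) u := fun u => spIso_symm_left (hP1 x hx).1 z u
  rw [h1, h2]

variable (hP3 : ∀ x ∈ P, ∃ k : ℕ, x ^ (2 ^ k) = 1)
include hP3

theorem B_apply_self {x : V ≃ₗ[F] V} (hx : x ∈ P) {z : V} (haz : B a z = 0) : B (x z) z = 0 := by
  by_contra h
  obtain ⟨y, hy, hyv⟩ := exists_comm hA hP1 hP2 hx haz (B (x z) z)⁻¹
  obtain ⟨k, hk⟩ := hP3 y hy
  generalize x z = z' at *
  have h1 : y z = z + z' := by
    rw [hyv]; simp [hA.self_eq_zero, h]
  have h2 : y z' = z := by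
    rw [hyv]
    simp only [map_add, map_smul, hA.self_eq_zero, B_comm hA z z', smul_eq_mul]
    match_scalars <;> grind
  have key : ∀ k : ℕ, ((y ^ (2 ^ k)) z = z + z' ∧ (y ^ (2 ^ k)) z' = z) ∨
      ((y ^ (2 ^ k)) z = z' ∧ (y ^ (2 ^ k)) z' = z + z') := by
    intro k
    induction k with
    | zero => exact Or.inl (by simpa using ⟨h1, h2⟩)
    | succ k ih =>
      rw [pow_succ, pow_mul, _root_.sq, LinearEquiv.mul_apply, LinearEquiv.mul_apply]
      rcases ih with ⟨h3, h4⟩ | ⟨h3, h4⟩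
      · refine Or.inr ⟨?_, by rw [h4, h3]⟩
        rw [h3, map_add, h3, h4, add_right_comm, add_self (F := F), zero_add]
      · refine Or.inl ⟨by rw [h3, h4], ?_⟩
        rw [h4, map_add, h3, h4, add_left_comm, add_self (F := F), add_zero]
  rcases key k with ⟨-, h3⟩ | ⟨h3, -⟩ <;> rw [hk] at h3 <;> apply h
  · rw [show z' = z from h3, hA.self_eq_zero]
  · rw [show z = z' from h3, hA.self_eq_zero]

variable [FiniteDimensional F V] (hB : B.Nondegenerate)
include hB

theorem exists_apply_eq_add {x : V ≃ₗ[F] V} (hx : x ∈ P) {z : V} (haz : B a z = 0) :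
    ∃ c : F, x z = z + c • a := by
  by_contra h
  have hn : x z + z ∉ Submodule.span F {a} := by
    intro h'
    obtain ⟨c, hc⟩ := Submodule.mem_span_singleton.1 h'
    exact h ⟨c, by rw [hc, add_left_comm, add_self (F := F), add_zero]⟩
  obtain ⟨u, hu1, hu2⟩ := exists_dual hA hB _ hn
  have hua : B u a = 0 := hu2 a (Submodule.mem_span_singleton_self a)
  obtain ⟨y, hy, hyv⟩ := exists_comm hA hP1 hP2 hx haz 1
  have h1 := B_apply_self hA hP1 hP2 hP3 hy ((B_comm hA a u).trans hua)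
  have h2 := B_apply_self hA hP1 hP2 hP3 hx haz
  rw [hyv] at h1
  simp only [map_add, map_smul, LinearMap.add_apply, LinearMap.smul_apply, smul_eq_mul,
    hA.self_eq_zero, h2, B_comm hA z u, B_comm hA (x z) u] at h1 hu1
  grind

theorem exists_heis {b : V} (hab : B a b = 1) {x : V ≃ₗ[F] V} (hx : x ∈ P) :
    ∃ w d, B a w = 0 ∧ B b w = 0 ∧ ∀ v, x v = v + (B w v + d * B a v) • a + B a v • w := by
  obtain ⟨w, haw, hbw, e⟩ := decomp hA hab (x b + b)
  have h1 : B a (x b) = 1 := by
    rw [← hab, ← (hP1 x hx).1 a b, (hP1 x hx).2]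
  rw [map_add (B a), h1, hab, CharTwo.add_self_eq_zero] at e
  generalize B b (x b + b) = d at e
  have hb : x b = b + d • a + w := by
    rw [eq_sub_of_add_eq e]
    match_scalars <;> grind
  refine ⟨w, d, haw, hbw, fun v => ?_⟩
  obtain ⟨z, t, haz, rfl⟩ : ∃ (z : V) (t : F), B a z = 0 ∧ v = z + t • b :=
    ⟨v + B a v • b, B a v, by simp [hab, CharTwo.add_self_eq_zero], by match_scalars <;> grind⟩
  obtain ⟨c, hc⟩ := exists_apply_eq_add hA hP1 hP2 hP3 hB hx haz
  have h2 := (hP1 x hx).1 z b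
  rw [hc, hb] at h2
  simp only [map_add, map_smul, LinearMap.add_apply, LinearMap.smul_apply, smul_eq_mul,
    hA.self_eq_zero, hab, haw, haz, B_comm hA z a, B_comm hA z w] at h2
  simp only [map_add, map_smul, hc, hb, haz, hab, B_comm hA w b, hbw, smul_eq_mul]
  have h3 : c = B w z := by
    linear_combination h2 - B w z * CharTwo.two_eq_zero (R := F)
  rw [h3]
  module

theorem exists_isX [Finite F] (ha : a ≠ 0) {X : Subgroup (V ≃ₗ[F] V)} (hX : X ≤ P)
    (hcard : Nat.card X = Nat.card F ^ (finrank F V - 2)) (hno : ∀ d, TvIn B X a d → d = 0) :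
    Pt B X a := by
  classical
  obtain ⟨b, hb⟩ := exists_B_eq_one hA hB ha
  have hab : B a b = 1 := (B_comm hA a b).trans hb
  let W := LinearMap.ker ((B a).prod (B b))
  have hW : ∀ w, w ∈ W ↔ B a w = 0 ∧ B b w = 0 := fun w => by simp [W]
  have hWc : Nat.card W = Nat.card X := by
    have hr : LinearMap.range ((B a).prod (B b)) = ⊤ := LinearMap.range_eq_top.2 fun p =>
      ⟨p.2 • a + p.1 • b, by ext <;> simp [hA.self_eq_zero, hab, hb]⟩
    have h3 := LinearMap.finrank_range_add_finrank_ker ((B a).prod (B b))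
    rw [hr, finrank_top, finrank_prod, finrank_self] at h3
    rw [hcard, Module.natCard_eq_pow_finrank (K := F), ← h3, Nat.add_sub_cancel_left]
  choose w d haw hbw hwd using fun x : X => exists_heis hA hP1 hP2 hP3 hB hab (hX x.2)
  have hin : ∀ x, HIn B X a (w x) (d x) := fun x => ⟨x, x.2, hwd x⟩
  let f : X → W := fun x => ⟨w x, (hW _).2 ⟨haw x, hbw x⟩⟩
  have hinj : Function.Injective f := by
    intro x y hxy
    have h1 : w x = w y := congrArg Subtype.val hxy
    have h2 : d x = d y := hIn_unique hA hno (haw x) (hin x) ((hin y).congr rfl h1.symm rfl)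
    ext v
    rw [hwd, hwd, h1, h2]
  have : Finite V := Module.finite_of_finite F
  have hsurj := (hinj.bijective_of_nat_card_le hWc.le).2
  have hshift : ∀ u e (c : F), HIn B X a u e → HIn B X a (u + c • a) e := fun u e c h =>
    hIn_shift.2 (h.congr rfl rfl (by grind))
  have hex : ∀ u, B a u = 0 → ∃ e, HIn B X a u e := by
    intro u hu
    obtain ⟨w', haw', hbw', e⟩ := decomp hA hab u
    obtain ⟨x, hx⟩ := hsurj ⟨w', (hW _).2 ⟨haw', hbw'⟩⟩
    have h1 : w x = w' := congrArg Subtype.val hx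
    refine ⟨d x, (hshift _ _ (B b u) (hin x)).congr rfl ?_ rfl⟩
    conv_rhs => rw [e, hu]
    rw [h1]
    module
  choose! φ hφ using hex
  refine ⟨φ, ha, fun u u' hu hu' => ?_, fun c => ?_, hφ⟩
  · have h1 : B a (u + u') = 0 := by simp [hu, hu']
    exact hIn_unique hA hno h1 (hφ _ h1) ((hφ _ hu).mul hA hu hu' (hφ _ hu'))
  · have h1 : B a (c • a) = 0 := by simp [hA.self_eq_zero]
    exact hIn_unique hA hno h1 (hφ _ h1)
      ((hshift _ _ c (tvIn_iff.1 (tvIn_zero a))).congr rfl (zero_add _) rfl)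

end core

/-- Irreducible subgroups of a symplectic group in characteristic two with a vector in `Pt`. -/
theorem classification [Finite F] [FiniteDimensional F V] (hA : B.IsAlt) (hB : B.Nondegenerate)
    (hM : M ≤ spIso B) (hdim : 3 ≤ finrank F V) (ha : Pt B M a)
    (hirr : ∀ W : Submodule F V, (∀ g ∈ M, ∀ w ∈ W, g w ∈ W) → W = ⊥ ∨ W = ⊤) :
    M = spIso B ∨ (∃ Q : QuadraticForm F V, (∀ u v, polar Q u v = B u v) ∧
      (M = O Q ∨ ∀ g, g ∈ M ↔ g ∈ O Q ∧ Even (rk g))) ∨
      (Nat.card F = 2 ∧ finrank F V ≤ 4 ∧ (finrank F V = 4 → 120 ∣ Nat.card M)) := by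
  by_cases hI : ∀ a b, Pt B M a → Pt B M b → B a b = 1 → ¬ Pt B M (b + a)
  · right; left
    have hspan : Submodule.span F {x | Pt B M x} = ⊤ := by
      refine (hirr _ fun g hg w hw => ?_).resolve_left fun h => ?_
      · refine (Submodule.map_span_le (g : V →ₗ[F] V) _ _).2 ?_ (Submodule.mem_map_of_mem hw)
        exact fun x hx => Submodule.subset_span (Pt.conj hM hx hg)
      · exact ha.ne ((Submodule.span_eq_bot.1 h) a ha)
    obtain ⟨b, hb, hab⟩ : ∃ b, Pt B M b ∧ B a b ≠ 0 := by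
      by_contra h
      push Not at h
      have : Submodule.span F {x | Pt B M x} ≤ LinearMap.ker (B a) := Submodule.span_le.2 h
      rw [hspan] at this
      exact ha.ne (hB.1 a fun y => this trivial)
    exact exists_quad_eq hA hM hI hB hdim ha (hb.smul (inv_ne_zero hab)) (by simp [hab])
  push Not at hI
  obtain ⟨a, b, ha, hb, hab, h3⟩ := hI
  have hP : ∀ x, x ≠ 0 → Pt B M x := fun x hx => pt_of_three hA hB hM hdim ha hb hab h3 hx
  by_cases hno : ∀ x d, x ≠ 0 → TvIn B M x d → d = 0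
  · right; right
    have hF : Nat.card F = 2 := (Nat.card_eq_two_iff' (0 : F)).2 ⟨1, one_ne_zero, fun y hy =>
      (eq_zero_or_one hA hB hM hdim hP hno y).resolve_left hy⟩
    exact ⟨hF, finrank_le_four hA hB hM hP hno, fun h => dvd_card hA hB hM hF h hP⟩
  · push Not at hno
    obtain ⟨x, d, hx, h, hd⟩ := hno
    exact Or.inl (le_antisymm hM (spIso_le_of_tvIn hA hB hM hdim hP hx hd h))

end CfsgLib.Sp2Root
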